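import Groth.Agent.Ega43.DvrScheme
import Groth.Agent.FlatA.CompactifNoeth
import Mathlib.AlgebraicGeometry.ValuativeCriterion
import Mathlib.AlgebraicGeometry.FunctionField

/-!
# Properness near a point from a compactification

If `f = j ≫ p` with `j` an open immersion and `p` proper, and every point of the closure of the
range of `j` above `y` lies in the range of `j`, then `f` is proper over a neighbourhood of `y`.
-/

set_option autoImplicit false
open CategoryTheory AlgebraicGeometry Limits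
universe u

namespace Groth.Agent.Ega4fib.H108.ProperNearCompactif

open IsLocalRing

/-- Geometric key step. -/
theorem exists_isProper_restrict {X P Y : Scheme.{u}} (f : X ⟶ Y)
    (j : X ⟶ P) (p : P ⟶ Y) [IsProper p] [IsImmersion j] [QuasiCompact j]
    (hcomm : j ≫ p = f) (y : Y)
    (h : ∀ z ∈ closure (Set.range j), p z = y → z ∈ Set.range j) :
    ∃ U : Y.Opens, y ∈ U ∧ IsProper (f ∣_ U) := by
  have hZ : IsClosed (coborder (Set.range j))ᶜ :=
    (isLocallyClosed_iff_isOpen_coborder.mp j.isLocallyClosed_range).isClosed_compl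
  have hpZ : IsClosed (p '' (coborder (Set.range j))ᶜ) := p.isClosedMap _ hZ
  let U : Y.Opens := ⟨(p '' (coborder (Set.range j))ᶜ)ᶜ, hpZ.isOpen_compl⟩
  have hpU : ∀ z : P, p z ∈ U → z ∈ coborder (Set.range j) := by
    intro z hz
    by_contra hzn
    exact hz ⟨z, hzn, rfl⟩
  refine ⟨U, ?_, ?_⟩
  · rintro ⟨z, hz, hzy⟩
    have h1 : z ∈ closure (Set.range j) := by
      rw [coborder, compl_compl] at hz
      exact hz.1
    exact hz (subset_coborder (h z h1 hzy))
  · have hcl : IsClosedImmersion (j ∣_ (p ⁻¹ᵁ U)) := by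
      refine IsClosedImmersion.of_isPreimmersion _ ?_
      have h1 : Set.range (j ∣_ (p ⁻¹ᵁ U)) = (p ⁻¹ᵁ U).ι ⁻¹' closure (Set.range j) := by
        ext z
        rw [Set.mem_preimage]
        constructor
        · rintro ⟨w, rfl⟩
          apply subset_closure
          rw [← Scheme.Hom.comp_apply, morphismRestrict_ι, Scheme.Hom.comp_apply]
          exact ⟨_, rfl⟩
        · intro hz
          have h2 : (p ⁻¹ᵁ U).ι z ∈ Set.range j := by
            rw [← closure_inter_coborder (s := Set.range j)]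
            exact ⟨hz, hpU _ z.2⟩
          obtain ⟨w, hw⟩ := h2
          have hw' : w ∈ j ⁻¹ᵁ (p ⁻¹ᵁ U) := by
            change j w ∈ p ⁻¹ᵁ U
            rw [hw]
            exact z.2
          let w' : ((j ⁻¹ᵁ (p ⁻¹ᵁ U) : X.Opens) : Scheme.{u}) := ⟨w, hw'⟩
          refine ⟨w', ?_⟩
          apply (p ⁻¹ᵁ U).ι.isOpenEmbedding.injective
          have h3 : (p ⁻¹ᵁ U).ι ((j ∣_ (p ⁻¹ᵁ U)) w') = j ((j ⁻¹ᵁ (p ⁻¹ᵁ U)).ι w') := by
            rw [← Scheme.Hom.comp_apply, morphismRestrict_ι, Scheme.Hom.comp_apply]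
          exact h3.trans hw
      rw [h1]
      exact isClosed_closure.preimage (p ⁻¹ᵁ U).ι.continuous
    have h1 : IsProper ((j ≫ p) ∣_ U) := by
      rw [morphismRestrict_comp]
      have h5 : IsProper (j ∣_ (p ⁻¹ᵁ U)) := by infer_instance
      have h6 : IsProper (p ∣_ U) := IsZariskiLocalAtTarget.restrict ‹_› _
      exact MorphismProperty.comp_mem @IsProper _ _ h5 h6
    rwa [hcomm] at h1

/-- Lifting along `f` for discrete valuation rings of a fixed field `L` with a fixed
`Spec L ⟶ X`, centred at `y`. -/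
def LiftAtGen {X Y : Scheme.{u}} (f : X ⟶ Y) (L : Type u) [Field L]
    (i₁ : Spec (CommRingCat.of L) ⟶ X) (y : Y) : Prop :=
  ∀ (R : Type u) [CommRing R] [IsDomain R] [IsDiscreteValuationRing R]
    [Algebra R L] [IsFractionRing R L] (i₂ : Spec (CommRingCat.of R) ⟶ Y),
    i₂ (closedPoint R) = y → i₁ ≫ f = Spec.map (CommRingCat.ofHom (algebraMap R L)) ≫ i₂ →
    ∃ l : Spec (CommRingCat.of R) ⟶ X,
      Spec.map (CommRingCat.ofHom (algebraMap R L)) ≫ l = i₁ ∧ l ≫ f = i₂

/-- Valuation-theoretic key step: `j : X ⟶ P` over `Y` with `P` locally Noetherian and separated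
over `Y`; `i₁ : Spec L ⟶ X` a point with `L` its residue field (the map from the stalk is
surjective) which is dense in `X`. -/
theorem mem_range_of_mem_closure {X P Y : Scheme.{u}} [IsLocallyNoetherian P] (f : X ⟶ Y)
    (j : X ⟶ P) (p : P ⟶ Y) [IsSeparated p] (hcomm : j ≫ p = f)
    (L : Type u) [Field L] (i₁ : Spec (CommRingCat.of L) ⟶ X)
    (hdense : ∀ x : X, i₁ (closedPoint L) ⤳ x)
    (hsurj : Function.Surjective
      (Scheme.stalkClosedPointTo (R := CommRingCat.of L) (i₁ ≫ j)).hom)
    (y : Y) (h : LiftAtGen f L i₁ y) (z : P) (hz : z ∈ closure (Set.range j))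
    (hzy : p z = y) : z ∈ Set.range j := by
  have hspec : (i₁ ≫ j) (closedPoint L) ⤳ z := by
    rw [specializes_iff_mem_closure]
    refine closure_minimal ?_ isClosed_closure hz
    rintro _ ⟨x, rfl⟩
    rw [← specializes_iff_mem_closure]
    rw [Scheme.Hom.comp_apply]
    exact (hdense x).map j.continuous
  by_cases hne : (i₁ ≫ j) (closedPoint L) = z
  · exact ⟨i₁ (closedPoint L), by rw [← hne, Scheme.Hom.comp_apply]⟩
  set O := P.presheaf.stalk z with hO
  let ψ : P.presheaf.stalk z ⟶ CommRingCat.of L := P.presheaf.stalkSpecializes hspec ≫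
    Scheme.stalkClosedPointTo (R := CommRingCat.of L) (i₁ ≫ j)
  have hψ : ψ.hom.EssFiniteType := by
    have h1 := Groth.Agent.Ega43.DvrScheme.essFiniteType_stalkSpecializes hspec
    have h2 : (Scheme.stalkClosedPointTo (R := CommRingCat.of L) (i₁ ≫ j)).hom.EssFiniteType :=
      RingHom.FiniteType.essFiniteType (RingHom.FiniteType.of_surjective _ hsurj)
    exact RingHom.EssFiniteType.comp h1 h2
  have hψspec : Spec.map ψ ≫ P.fromSpecStalk z = i₁ ≫ j := by
    rw [Spec.map_comp, Category.assoc, Scheme.SpecMap_stalkSpecializes_fromSpecStalk]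
    exact Scheme.Spec_stalkClosedPointTo_fromSpecStalk (R := CommRingCat.of L) (i₁ ≫ j)
  have hker : RingHom.ker ψ.hom ≠ maximalIdeal (P.presheaf.stalk z) := by
    intro hk
    apply hne
    have h1 : (Spec.map ψ) (closedPoint L) = closedPoint (P.presheaf.stalk z) := by
      apply PrimeSpectrum.ext
      change (maximalIdeal L).comap ψ.hom = maximalIdeal _
      rw [IsLocalRing.maximalIdeal_eq_bot, ← hk]
      rfl
    have h2 : (Spec.map ψ ≫ P.fromSpecStalk z) (closedPoint L) = z :=
      (Scheme.Hom.comp_apply _ _ _).trans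
        ((congrArg (P.fromSpecStalk z) h1).trans Scheme.fromSpecStalk_closedPoint)
    rwa [hψspec] at h2
  obtain ⟨R, _, _, _, _, _, g, hg1, hg2⟩ :=
    Groth.Agent.Ega43.DvrScheme.exists_dvr_of_ringHom (P.presheaf.stalk z) L ψ.hom hψ hker
  let gS : Spec (CommRingCat.of R) ⟶ P := Spec.map (CommRingCat.ofHom g) ≫ P.fromSpecStalk z
  have hgS : gS (closedPoint R) = z := by
    have h1 : (Spec.map (CommRingCat.ofHom g)) (closedPoint R) =
        closedPoint (P.presheaf.stalk z) :=
      IsLocalRing.comap_closedPoint g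
    exact (Scheme.Hom.comp_apply _ _ _).trans
      ((congrArg (P.fromSpecStalk z) h1).trans Scheme.fromSpecStalk_closedPoint)
  have hgS2 : Spec.map (CommRingCat.ofHom (algebraMap R L)) ≫ gS = i₁ ≫ j := by
    rw [← hψspec, ← Category.assoc, ← Spec.map_comp, ← CommRingCat.ofHom_comp, hg2]
    rfl
  obtain ⟨l, hl1, hl2⟩ := h R (gS ≫ p)
    ((Scheme.Hom.comp_apply _ _ _).trans ((congrArg p hgS).trans hzy)) (by
      rw [← hcomm, ← Category.assoc, ← Category.assoc, ← hgS2])
  -- uniqueness
  let S2 : ValuativeCommSq p :=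
    { R := R
      K := L
      i₁ := i₁ ≫ j
      i₂ := gS ≫ p
      commSq := ⟨by rw [← hgS2, Category.assoc]⟩ }
  have hp := IsSeparated.valuativeCriterion p S2
  have hfac1 : Spec.map (CommRingCat.ofHom (algebraMap R L)) ≫ l ≫ j = i₁ ≫ j := by
    rw [← Category.assoc]
    exact congrArg (· ≫ j) hl1
  have hfac2 : (l ≫ j) ≫ p = gS ≫ p := by
    rw [Category.assoc, hcomm, hl2]
  have key : l ≫ j = gS := by
    have := @Subsingleton.elim _ hp ⟨l ≫ j, hfac1, hfac2⟩ ⟨gS, hgS2, rfl⟩
    exact congrArg CommSq.LiftStruct.l this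
  refine ⟨l (closedPoint R), ?_⟩
  rw [← hgS, ← key]
  exact (Scheme.Hom.comp_apply _ _ _).symm

end Groth.Agent.Ega4fib.H108.ProperNearCompactif
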