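import Groth.Agent.Ega4fib.H108.ProperNearCompactif
import Groth.Agent.Ega2.DVRFunctionField

/-!
# Properness near a point: discrete valuation rings of the function field

For `f : X ⟶ Y` separated of finite type with `Y` locally Noetherian and `i₁ : Spec L ⟶ X` with
dense image and `L` its residue field, `f` is proper over a neighbourhood of `y` as soon as
discrete valuation rings of `L` centred at `y` lift to `X`.
-/

set_option autoImplicit false
open CategoryTheory AlgebraicGeometry Limits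
universe u

namespace Groth.Agent.Ega4fib.H108.ProperNearDvr

open IsLocalRing ProperNearCompactif

/-- Two morphisms from the spectrum of a local domain with the same image of the closed point
which agree on the generic point are equal. -/
lemma hom_ext_of_closedPoint {T : Scheme.{u}} {A K : Type u} [CommRing A]
    [IsLocalRing A] [Field K] [Algebra A K] (hinj : Function.Injective (algebraMap A K))
    (g₁ g₂ : Spec (CommRingCat.of A) ⟶ T) (hc : g₁ (closedPoint A) = g₂ (closedPoint A))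
    (h : Spec.map (CommRingCat.ofHom (algebraMap A K)) ≫ g₁ =
      Spec.map (CommRingCat.ofHom (algebraMap A K)) ≫ g₂) : g₁ = g₂ := by
  obtain ⟨V, hV, hyV, -⟩ := exists_isAffineOpen_mem_and_subset
    (U := (⊤ : T.Opens)) (x := g₁ (closedPoint A)) trivial
  obtain ⟨α₁, hα₁⟩ := Groth.Agent.Ega2.DVRCriterion.factor' g₁ hV hyV
  obtain ⟨α₂, hα₂⟩ := Groth.Agent.Ega2.DVRCriterion.factor' g₂ hV (hc ▸ hyV)
  have h1 : α₁ ≫ CommRingCat.ofHom (algebraMap A K) = α₂ ≫ CommRingCat.ofHom (algebraMap A K) := by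
    apply Groth.Agent.Ega2.DVRCriterion.hom_eq hV
    rw [Spec.map_comp, Spec.map_comp, Category.assoc, Category.assoc, hα₁, hα₂, h]
  have hmono : Mono (CommRingCat.ofHom (algebraMap A K)) :=
    ConcreteCategory.mono_of_injective _ hinj
  have h2 : α₁ = α₂ := by rwa [cancel_mono] at h1
  rw [← hα₁, ← hα₂, h2]

lemma LiftAtGen.restrict {X Y : Scheme.{u}} (f : X ⟶ Y) (L : Type u) [Field L]
    (i₁ : Spec (CommRingCat.of L) ⟶ X) (y : Y) (h : LiftAtGen f L i₁ y) (V : Y.Opens) (hy : y ∈ V)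
    (i₁' : Spec (CommRingCat.of L) ⟶ (f ⁻¹ᵁ V : X.Opens)) (hi : i₁' ≫ (f ⁻¹ᵁ V).ι = i₁) :
    LiftAtGen (f ∣_ V) L i₁' ⟨y, hy⟩ := by
  intro R _ _ _ _ _ i₂ h1 h2
  obtain ⟨l, hl1, hl2⟩ := h R (i₂ ≫ V.ι)
    ((Scheme.Hom.comp_apply _ _ _).trans (congrArg V.ι h1)) (by
      rw [← hi, Category.assoc, ← morphismRestrict_ι, reassoc_of% h2])
  refine ⟨(isPullback_morphismRestrict f V).flip.lift l i₂ hl2, ?_,
    (isPullback_morphismRestrict f V).flip.lift_snd _ _ _⟩
  apply (isPullback_morphismRestrict f V).flip.hom_ext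
  · rw [Category.assoc, IsPullback.lift_fst, hl1, hi]
  · rw [Category.assoc, IsPullback.lift_snd, h2]

lemma surjective_of_comp {X Y : Scheme.{u}} (L : Type u) [Field L]
    (i : Spec (CommRingCat.of L) ⟶ X) (g : X ⟶ Y)
    (h : Function.Surjective (Scheme.stalkClosedPointTo (R := CommRingCat.of L) (i ≫ g)).hom) :
    Function.Surjective (Scheme.stalkClosedPointTo (R := CommRingCat.of L) i).hom := by
  intro a
  obtain ⟨b, hb⟩ := h a
  rw [Scheme.stalkClosedPointTo_comp] at hb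
  exact ⟨_, hb⟩

lemma surjective_comp {X Y : Scheme.{u}} (L : Type u) [Field L]
    (i : Spec (CommRingCat.of L) ⟶ X) (g : X ⟶ Y) [IsPreimmersion g]
    (h : Function.Surjective (Scheme.stalkClosedPointTo (R := CommRingCat.of L) i).hom) :
    Function.Surjective (Scheme.stalkClosedPointTo (R := CommRingCat.of L) (i ≫ g)).hom := by
  rw [Scheme.stalkClosedPointTo_comp]
  exact h.comp (g.stalkMap_surjective _)

/-- **Main criterion.** -/
theorem exists_isProper_of_liftAtGen {X Y : Scheme.{u}} [IsLocallyNoetherian Y] (f : X ⟶ Y)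
    [IsSeparated f] [LocallyOfFiniteType f] [QuasiCompact f] (L : Type u) [Field L]
    (i₁ : Spec (CommRingCat.of L) ⟶ X) (hdense : ∀ x : X, i₁ (closedPoint L) ⤳ x)
    (hsurj : Function.Surjective
      (Scheme.stalkClosedPointTo (R := CommRingCat.of L) i₁).hom)
    (y : Y) (hspec : f (i₁ (closedPoint L)) ⤳ y) (h : LiftAtGen f L i₁ y) :
    ∃ U : Y.Opens, y ∈ U ∧ IsProper (f ∣_ U) := by
  obtain ⟨V, hV, hyV, -⟩ := exists_isAffineOpen_mem_and_subset
    (U := (⊤ : Y.Opens)) (x := y) trivial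
  have : IsAffine (V : Scheme.{u}) := hV
  have : IsNoetherian (V : Scheme.{u}) := {}
  have hmem : i₁ (closedPoint L) ∈ f ⁻¹ᵁ V := hspec.mem_open V.2 hyV
  have hrange : Set.range i₁ ⊆ Set.range (f ⁻¹ᵁ V).ι := by
    rintro _ ⟨t, rfl⟩
    rw [Scheme.Opens.range_ι]
    have : t = closedPoint L := Subsingleton.elim _ _
    rw [this]
    exact hmem
  let i₁' : Spec (CommRingCat.of L) ⟶ (f ⁻¹ᵁ V : X.Opens) :=
    IsOpenImmersion.lift (f ⁻¹ᵁ V).ι i₁ hrange
  have hi : i₁' ≫ (f ⁻¹ᵁ V).ι = i₁ := IsOpenImmersion.lift_fac _ _ _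
  have hl := LiftAtGen.restrict f L i₁ y h V hyV i₁' hi
  have hsurj' : Function.Surjective
      (Scheme.stalkClosedPointTo (R := CommRingCat.of L) i₁').hom :=
    surjective_of_comp L i₁' (f ⁻¹ᵁ V).ι (by rwa [hi])
  have hdense' : ∀ x : (f ⁻¹ᵁ V : X.Opens), i₁' (closedPoint L) ⤳ x := by
    intro x
    rw [← (f ⁻¹ᵁ V).ι.isOpenEmbedding.isInducing.specializes_iff]
    have h1 : (f ⁻¹ᵁ V).ι (i₁' (closedPoint L)) = i₁ (closedPoint L) := by
      rw [← Scheme.Hom.comp_apply, hi]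
    rw [h1]
    exact hdense _
  obtain ⟨P, j, p, hj, hjqc, hp, hcomm⟩ :=
    Groth.Agent.FlatA.CompactifNoeth.hasCompactification_of_isNoetherian (f ∣_ V)
  have hN : IsLocallyNoetherian P := LocallyOfFiniteType.isLocallyNoetherian p
  obtain ⟨U, hyU, hU⟩ := exists_isProper_restrict (f ∣_ V) j p hcomm ⟨y, hyV⟩
    (fun z hz hzy => mem_range_of_mem_closure (f ∣_ V) j p hcomm L i₁' hdense'
      (surjective_comp L i₁' j hsurj') ⟨y, hyV⟩ hl z hz hzy)
  refine ⟨V.ι ''ᵁ U, ⟨⟨y, hyV⟩, hyU, rfl⟩, ?_⟩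
  exact (MorphismProperty.arrow_mk_iso_iff @IsProper (morphismRestrictRestrict f V U)).1 hU

end Groth.Agent.Ega4fib.H108.ProperNearDvr
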